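import Mathlib

/-!
# S5175 (hub helper756), T6: the commuting graph on the conjugates of `W` (helper270)

`Hyp W Q T0 Dk Wu Ta` : the hypotheses in terms of the group `G = T`. `Hyp.le_of_odd` : if an odd power of the
automorphism `β` is inner then `β W ≤ Q`.
-/

set_option autoImplicit false

namespace Cfsg.Agent.H270.HM

open Subgroup
open scoped commutatorElement

variable {G : Type*} [Group G]

/-- The hypotheses (`G` is the Sylow 2-subgroup). -/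
structure Hyp (W Q T0 Dk Wu Ta : Subgroup G) : Prop where
  WQ : W ≤ Q
  Wn : W.Normal
  Qn : Q.Normal
  comm : ∀ w ∈ W, ∀ g ∈ Q, w * g = g * w
  sq : ∀ w ∈ W, w * w = 1
  cen : ∀ t : G, (∀ w ∈ W, w * t = t * w) → t ∈ Q
  Dsq : ∀ g ∈ Q, g * g ∈ Dk
  Dcomm : ∀ g ∈ Q, ∀ h ∈ Q, ⁅g, h⁆ ∈ Dk
  strong : ∀ β : MulAut G, ¬ W.map β.toMonoidHom ≤ Q → W.map β.toMonoidHom ⊔ Q = T0
  cent : ∀ t : G, (∀ a ∈ T0, ⁅t, a⁆ ∈ Q) → t ∈ T0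
  Wu_le : ∀ w ∈ W, (∀ a ∈ T0, w * a = a * w) → w ∈ Wu
  nWu : ¬ W ≤ Wu
  QTa : Q ≤ Ta
  nTa : ¬ T0 ≤ Ta
  coord : ∀ w ∈ W, ∀ t ∈ T0, ⁅w, t⁆ ∈ Dk → w ∈ Wu ∨ t ∈ Ta

/-- adjacency with `W` -/
def N (W Q : Subgroup G) (β : MulAut G) : Prop := ¬ W.map β.toMonoidHom ≤ Q

namespace Hyp

variable {W Q T0 Dk Wu Ta : Subgroup G} (h : Hyp W Q T0 Dk Wu Ta)
include h

theorem map_le_iff (β : MulAut G) : W.map β.toMonoidHom ≤ Q ↔ ∀ w ∈ W, ∀ v ∈ W, w * β v = β v * w := by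
  constructor
  · intro h1 w hw v hv
    exact h.comm w hw _ (h1 ⟨v, hv, rfl⟩)
  · rintro h1 _ ⟨v, hv, rfl⟩
    exact h.cen _ fun w hw => h1 w hw v hv

theorem N_iff (β : MulAut G) : N W Q β ↔ ∃ w ∈ W, ∃ v ∈ W, w * β v ≠ β v * w := by
  unfold N
  rw [h.map_le_iff]
  push Not
  rfl

theorem N_inv {β : MulAut G} (hβ : N W Q β) : N W Q β⁻¹ := by
  rw [h.N_iff] at hβ ⊢
  obtain ⟨w, hw, v, hv, hne⟩ := hβ
  refine ⟨v, hv, w, hw, fun h1 => hne ?_⟩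
  have h2 := congrArg β h1
  rw [map_mul, map_mul, MulAut.apply_inv_self] at h2
  exact h2.symm

omit h in
theorem mem_map {β : MulAut G} {H : Subgroup G} {x : G} : x ∈ H.map β.toMonoidHom ↔ β⁻¹ x ∈ H := by
  constructor
  · rintro ⟨y, hy, rfl⟩
    show β⁻¹ (β y) ∈ H
    rwa [MulAut.inv_apply_self]
  · intro hx
    exact ⟨_, hx, MulAut.apply_inv_self _ _ _⟩

theorem map_W_le {β : MulAut G} (hβ : N W Q β) : W.map β.toMonoidHom ≤ T0 := by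
  rw [← h.strong β hβ]; exact le_sup_left

theorem Q_le {β : MulAut G} (hβ : N W Q β) : Q ≤ T0 := by
  rw [← h.strong β hβ]; exact le_sup_right

theorem exists_mul {β : MulAut G} (hβ : N W Q β) {t : G} (ht : t ∈ T0) : ∃ w ∈ W, ∃ g ∈ Q, t = β w * g := by
  have := h.Qn
  rw [← h.strong β hβ, Subgroup.mem_sup_of_normal_right] at ht
  obtain ⟨_, ⟨w, hw, rfl⟩, g, hg, rfl⟩ := ht
  exact ⟨w, hw, g, hg, rfl⟩

theorem map_Q_le {β : MulAut G} (hβ : N W Q β) : Q.map β.toMonoidHom ≤ T0 := by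
  rintro _ ⟨g, hg, rfl⟩
  refine h.cent _ fun a ha => ?_
  obtain ⟨w, hw, k, hk, rfl⟩ := h.exists_mul hβ ha
  have h1 : β g * β w = β w * β g := by rw [← map_mul, ← map_mul, h.comm w hw g hg]
  have h2 : ⁅β g, β w * k⁆ = β w * (β g * k * (β g)⁻¹ * k⁻¹) * (β w)⁻¹ := by
    rw [commutatorElement_def]
    calc β g * (β w * k) * (β g)⁻¹ * (β w * k)⁻¹ = (β g * β w) * k * (β g)⁻¹ * k⁻¹ * (β w)⁻¹ := by group
      _ = _ := by rw [h1]; group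
  show ⁅β g, β w * k⁆ ∈ Q
  rw [h2]
  exact h.Qn.conj_mem _ (mul_mem (h.Qn.conj_mem _ hk _) (inv_mem hk)) _

theorem map_T0_le {β : MulAut G} (hβ : N W Q β) {t : G} (ht : t ∈ T0) : β t ∈ T0 := by
  obtain ⟨w, hw, g, hg, rfl⟩ := h.exists_mul (h.N_inv hβ) ht
  rw [map_mul, MulAut.apply_inv_self]
  exact mul_mem (h.Q_le hβ (h.WQ hw)) (h.map_Q_le hβ ⟨g, hg, rfl⟩)

/-- `T₀ = W · βQ` -/
theorem exists_mul' {β : MulAut G} (hβ : N W Q β) {t : G} (ht : t ∈ T0) : ∃ w ∈ W, ∃ g ∈ Q, t = w * β g := by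
  obtain ⟨w, hw, g, hg, h1⟩ := h.exists_mul (h.N_inv hβ) (h.map_T0_le (h.N_inv hβ) ht)
  refine ⟨w, hw, g, hg, ?_⟩
  have h2 := congrArg β h1
  rwa [MulAut.apply_inv_self, map_mul, MulAut.apply_inv_self] at h2

/-- `Q = W (Q ∩ βQ)` -/
theorem split {β : MulAut G} (hβ : N W Q β) {g : G} (hg : g ∈ Q) : ∃ w ∈ W, ∃ k ∈ Q, β k ∈ Q ∧ g = w * β k := by
  obtain ⟨w, hw, k, hk, rfl⟩ := h.exists_mul' hβ (h.Q_le hβ hg)
  refine ⟨w, hw, k, hk, ?_, rfl⟩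
  have := mul_mem (inv_mem (h.WQ hw)) hg
  rwa [inv_mul_cancel_left] at this

/-- `βQ = βW (Q ∩ βQ)` -/
theorem split' {β : MulAut G} (hβ : N W Q β) {g : G} (hg : g ∈ Q) : ∃ w ∈ W, ∃ k ∈ Q, β k ∈ Q ∧ g = w * k := by
  obtain ⟨w, hw, k, hk, h1, rfl⟩ := h.split (h.N_inv hβ) hg
  exact ⟨w, hw, _, h1, by rwa [MulAut.apply_inv_self], rfl⟩

/-- commutators with elements of `W` dropped -/
theorem comm_drop {w₁ w₂ g₁ g₂ : G} (hw₁ : w₁ ∈ W) (hw₂ : w₂ ∈ W) (hg₁ : g₁ ∈ Q) (hg₂ : g₂ ∈ Q) :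
    ⁅w₁ * g₁, w₂ * g₂⁆ = ⁅g₁, g₂⁆ := by
  have e1 := h.comm w₁ hw₁ _ (mul_mem (h.WQ hw₂) hg₂)
  have e2 := h.comm w₂ hw₂ g₁ hg₁
  rw [commutatorElement_def, commutatorElement_def]
  calc w₁ * g₁ * (w₂ * g₂) * (w₁ * g₁)⁻¹ * (w₂ * g₂)⁻¹
      = w₁ * g₁ * (w₂ * g₂) * g₁⁻¹ * w₁⁻¹ * (w₂ * g₂)⁻¹ := by group
    _ = w₁ * (g₁ * (w₂ * g₂) * g₁⁻¹ * (w₂ * g₂)⁻¹) * ((w₂ * g₂) * w₁⁻¹ * (w₂ * g₂)⁻¹) := by group
    _ = w₁ * (g₁ * (w₂ * g₂) * g₁⁻¹ * (w₂ * g₂)⁻¹) * w₁⁻¹ := by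
        have e3 : (w₂ * g₂) * w₁⁻¹ * (w₂ * g₂)⁻¹ = w₁⁻¹ := by
          rw [mul_inv_eq_iff_eq_mul, eq_inv_mul_iff_mul_eq, ← mul_assoc, e1, mul_inv_cancel_right]
        rw [e3]
    _ = g₁ * (w₂ * g₂) * g₁⁻¹ * (w₂ * g₂)⁻¹ := by
        have e4 : g₁ * (w₂ * g₂) * g₁⁻¹ * (w₂ * g₂)⁻¹ ∈ Q :=
          mul_mem (mul_mem (mul_mem hg₁ (mul_mem (h.WQ hw₂) hg₂)) (inv_mem hg₁))
            (inv_mem (mul_mem (h.WQ hw₂) hg₂))
        rw [h.comm w₁ hw₁ _ e4, mul_inv_cancel_right]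
    _ = (g₁ * w₂) * g₂ * g₁⁻¹ * g₂⁻¹ * w₂⁻¹ := by group
    _ = w₂ * (g₁ * g₂ * g₁⁻¹ * g₂⁻¹) * w₂⁻¹ := by rw [← e2]; group
    _ = g₁ * g₂ * g₁⁻¹ * g₂⁻¹ := by
        rw [h.comm w₂ hw₂ _ (mul_mem (mul_mem (mul_mem hg₁ hg₂) (inv_mem hg₁)) (inv_mem hg₂)), mul_inv_cancel_right]

/-- commutators of `βQ` lie in `Dk` -/
theorem comm_map {β : MulAut G} (hβ : N W Q β) {g₁ g₂ : G} (hg₁ : g₁ ∈ Q) (hg₂ : g₂ ∈ Q) : ⁅β g₁, β g₂⁆ ∈ Dk := by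
  obtain ⟨w₁, hw₁, k₁, hk₁, h1, rfl⟩ := h.split' hβ hg₁
  obtain ⟨w₂, hw₂, k₂, hk₂, h2, rfl⟩ := h.split' hβ hg₂
  have h3 : ⁅β (w₁ * k₁), β (w₂ * k₂)⁆ = β ⁅w₁ * k₁, w₂ * k₂⁆ := by simp [commutatorElement_def]
  have h4 : β ⁅k₁, k₂⁆ = ⁅β k₁, β k₂⁆ := by simp [commutatorElement_def]
  rw [h3, h.comm_drop hw₁ hw₂ hk₁ hk₂, h4]
  exact h.Dcomm _ h1 _ h2

/-- **triangle-free** -/
theorem no_triangle {β γ : MulAut G} (hβ : N W Q β) (hγ : N W Q γ) (hβγ : N W Q (β⁻¹ * γ)) : False := by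
  -- `t₁ ∈ γW \ Ta`
  obtain ⟨t₁, ht₁, hn₁⟩ : ∃ t ∈ W, γ t ∉ Ta := by
    by_contra hcon
    push Not at hcon
    apply h.nTa
    rw [← h.strong γ hγ, sup_le_iff]
    refine ⟨?_, h.QTa⟩
    rintro _ ⟨t, ht, rfl⟩
    exact hcon t ht
  -- the key alternative
  have key : ∀ t ∈ W, γ t ∈ Ta ∨ ∃ u ∈ Wu, u ∈ W ∧ ∃ k ∈ Q, γ t = u * β k := by
    intro t ht
    obtain ⟨g, hg, k, hk, h1⟩ := h.exists_mul' hβ (h.map_W_le hγ ⟨t, ht, rfl⟩)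
    obtain ⟨v, hv, c, hc, h2, rfl⟩ := h.split' hβ hk
    have h1 : γ t = g * β (v * c) := h1
    have hvsq : β v * β v = 1 := by rw [← map_mul, h.sq v hv, map_one]
    have hgc : g * β c = β c * g := h.comm g hg _ h2
    have hvc : β v * β c = β c * β v := by rw [← map_mul, ← map_mul, h.comm v hv c hc]
    have htsq : γ t * γ t = 1 := by rw [← map_mul, h.sq t ht, map_one]
    have h3 : ⁅g, β v⁆ * (β c * β c) = 1 := by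
      rw [commutatorElement_def]
      have e1 : g⁻¹ = g := inv_eq_of_mul_eq_one_left (h.sq g hg)
      have e2 : (β v)⁻¹ = β v := inv_eq_of_mul_eq_one_left hvsq
      rw [e1, e2]
      calc g * β v * g * β v * (β c * β c) = g * β v * g * (β v * β c) * β c := by group
        _ = g * β v * (g * β c) * β v * β c := by rw [hvc]; group
        _ = g * (β v * β c) * g * β v * β c := by rw [hgc]; group
        _ = (g * β (v * c)) * (g * β (v * c)) := by rw [map_mul]; group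
        _ = 1 := by rw [← h1, htsq]
    have h4 : ⁅g, β v⁆ ∈ Dk := by
      rw [mul_eq_one_iff_eq_inv.1 h3]
      exact inv_mem (h.Dsq _ h2)
    rcases h.coord g hg (β v) (h.map_W_le hβ ⟨v, hv, rfl⟩) h4 with h5 | h5
    · exact Or.inr ⟨g, h5, hg, v * c, mul_mem (h.WQ hv) hc, h1⟩
    · left
      rw [h1, map_mul]
      exact mul_mem (h.QTa (h.WQ hg)) (mul_mem h5 (h.QTa h2))
  -- `t₂`
  obtain ⟨t₂, ht₂, hn₂⟩ : ∃ t ∈ W, ¬ ∃ u ∈ Wu, u ∈ W ∧ ∃ k ∈ Q, γ t = u * β k := by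
    by_contra hcon
    push Not at hcon
    apply h.nWu
    intro w hw
    -- `w = β ((β⁻¹γ) v · k)`
    obtain ⟨v, hv, k, hk, h1⟩ := h.exists_mul hβγ (h.map_T0_le (h.N_inv hβ) (h.Q_le hβ (h.WQ hw)))
    have h2 : w = γ v * β k := by
      have h3 := congrArg β h1
      rwa [MulAut.apply_inv_self, map_mul, MulAut.mul_apply, MulAut.apply_inv_self] at h3
    obtain ⟨u, hu, huW, k', hk', h3⟩ := hcon v hv
    have h4 : u⁻¹ * w = β (k' * k) := by rw [h2, h3, map_mul]; group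
    have h5 : u⁻¹ * w ∈ Wu := by
      refine h.Wu_le _ (mul_mem (inv_mem huW) hw) fun a ha => ?_
      obtain ⟨b, hb, g, hg, rfl⟩ := h.exists_mul hβ ha
      have e1 : (u⁻¹ * w) * g = g * (u⁻¹ * w) := h.comm _ (mul_mem (inv_mem huW) hw) g hg
      have e2 : (u⁻¹ * w) * β b = β b * (u⁻¹ * w) := by
        rw [h4, ← map_mul, ← map_mul, h.comm b hb _ (mul_mem hk' hk)]
      calc (u⁻¹ * w) * (β b * g) = ((u⁻¹ * w) * β b) * g := by group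
        _ = β b * ((u⁻¹ * w) * g) := by rw [e2]; group
        _ = _ := by rw [e1]; group
    have h6 := mul_mem hu h5
    rwa [mul_inv_cancel_left] at h6
  -- combine
  have h1 : ∃ u ∈ Wu, u ∈ W ∧ ∃ k ∈ Q, γ t₁ = u * β k := (key t₁ ht₁).resolve_left hn₁
  have h2 : γ t₂ ∈ Ta := (key t₂ ht₂).resolve_right hn₂
  rcases key (t₁ * t₂) (mul_mem ht₁ ht₂) with h3 | h3
  · apply hn₁
    rw [map_mul] at h3
    have h4 := mul_mem h3 (inv_mem h2)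
    rwa [mul_inv_cancel_right] at h4
  · apply hn₂
    obtain ⟨u₁, hu₁, hu₁W, k₁, hk₁, e₁⟩ := h1
    obtain ⟨u₂, hu₂, hu₂W, k₂, hk₂, e₂⟩ := h3
    rw [map_mul] at e₂
    -- `γ t₂ = (γ t₁)⁻¹ u₂ β k₂ = (β k₁)⁻¹ (u₁⁻¹ u₂) β k₂`
    have h4 : γ t₂ = (β k₁)⁻¹ * (u₁⁻¹ * u₂) * β k₂ := by
      have h5 : γ t₂ = (γ t₁)⁻¹ * (γ t₁ * γ t₂) := by group
      rw [h5, e₂, e₁]; group
    refine ⟨u₁⁻¹ * u₂, mul_mem (inv_mem hu₁) hu₂, mul_mem (inv_mem hu₁W) hu₂W, ?_⟩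
    have h6 : (u₁⁻¹ * u₂)⁻¹ * (β k₁)⁻¹ * (u₁⁻¹ * u₂) ∈ Q.map β.toMonoidHom := by
      have hn : (Q.map β.toMonoidHom).Normal := h.Qn.map _ β.surjective
      have h7 := hn.conj_mem (β k₁)⁻¹ ⟨k₁⁻¹, inv_mem hk₁, map_inv β k₁⟩ (u₁⁻¹ * u₂)⁻¹
      rwa [inv_inv] at h7
    obtain ⟨k, hk, hk'⟩ := h6
    have hk' : β k = (u₁⁻¹ * u₂)⁻¹ * (β k₁)⁻¹ * (u₁⁻¹ * u₂) := hk'
    refine ⟨k * k₂, mul_mem hk hk₂, ?_⟩
    rw [h4, map_mul, hk']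
    group

/-- **paths of length three close**, at `c = 1` -/
theorem path {a b d : MulAut G} (hab : N W Q (a⁻¹ * b)) (hb : N W Q b) (hd : N W Q d) : N W Q (a⁻¹ * d) := by
  by_contra had
  have hbd : ¬ N W Q (b⁻¹ * d) := fun h1 => h.no_triangle hb hd h1
  have ha : ¬ N W Q a := by
    intro h1
    exact h.no_triangle h1 hb hab
  have ha' : ¬ N W Q a⁻¹ := fun h1 => ha (by simpa using h.N_inv h1)
  unfold N at had hbd ha'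
  push Not at had hbd ha'
  -- all commutators `[w, d v]` lie in `Dk`
  have key : ∀ w ∈ W, ∀ v ∈ W, ⁅w, d v⁆ ∈ Dk := by
    intro w hw v hv
    obtain ⟨x, hx, k, hk, h1, h2⟩ := h.split hab (ha' ⟨w, hw, rfl⟩)
    have h2 : a⁻¹ w = x * (a⁻¹ * b) k := h2
    have h3 : w = a x * b k := by
      have h4 := congrArg a h2
      rwa [MulAut.apply_inv_self, map_mul, MulAut.mul_apply, MulAut.apply_inv_self] at h4
    have e1 : (a⁻¹ * d) v ∈ Q := had ⟨v, hv, rfl⟩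
    have e2 : (b⁻¹ * d) v ∈ Q := hbd ⟨v, hv, rfl⟩
    -- `⁅w, d v⁆ = a ⁅x * k', v'⁆ = a ⁅k', v'⁆`
    have h4 : ⁅w, d v⁆ = a ⁅x * (a⁻¹ * b) k, 1 * (a⁻¹ * d) v⁆ := by
      rw [h3]
      simp [commutatorElement_def]
    have h5 : a ⁅(a⁻¹ * b) k, (a⁻¹ * d) v⁆ = ⁅b k, b ((b⁻¹ * d) v)⁆ := by
      simp [commutatorElement_def]
    rw [h4, h.comm_drop hx (one_mem _) h1 e1, h5]
    exact h.comm_map hb hk e2
  obtain ⟨w, hw, hwu⟩ := SetLike.not_le_iff_exists.1 h.nWu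
  apply h.nTa
  rw [← h.strong d hd, sup_le_iff]
  refine ⟨?_, h.QTa⟩
  rintro _ ⟨v, hv, rfl⟩
  exact (h.coord w hw (d v) (h.map_W_le hd ⟨v, hv, rfl⟩) (key w hw v hv)).resolve_left hwu

/-- odd powers -/
theorem N_pow {β : MulAut G} (hβ : N W Q β) (j : ℕ) : N W Q (β ^ (2 * j + 1)) := by
  induction j with
  | zero => simpa using hβ
  | succ j ih =>
    -- the path `1 - β^{2j+1} - β^{2j+2} - β^{2j+3}`, translated by the third vertex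
    set c := β ^ (2 * j + 2) with hc
    have e1 : c⁻¹ * β ^ (2 * j + 1) = β⁻¹ := by
      rw [hc, show 2 * j + 2 = (2 * j + 1) + 1 by omega, pow_succ, mul_inv_rev]
      group
    have e2 : c⁻¹ * β ^ (2 * (j + 1) + 1) = β := by
      rw [show 2 * (j + 1) + 1 = (2 * j + 2) + 1 by omega, pow_succ β (2 * j + 2), ← hc, inv_mul_cancel_left]
    have h1 := h.path (a := c⁻¹) (b := c⁻¹ * β ^ (2 * j + 1)) (d := c⁻¹ * β ^ (2 * (j + 1) + 1))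
      (by rw [inv_inv, mul_inv_cancel_left]; exact ih) (by rw [e1]; exact h.N_inv hβ) (by rw [e2]; exact hβ)
    rwa [inv_inv, mul_inv_cancel_left] at h1

/-- **The theorem** -/
theorem le_of_odd {β : MulAut G} {m : ℕ} (hm : Odd m) {t : G} (ht : β ^ m = MulAut.conj t) :
    W.map β.toMonoidHom ≤ Q := by
  by_contra hcon
  obtain ⟨j, rfl⟩ := hm
  have h1 := h.N_pow (β := β) hcon j
  apply h1
  rintro _ ⟨w, hw, rfl⟩
  show (β ^ (2 * j + 1)) w ∈ Q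
  rw [ht, MulAut.conj_apply]
  exact h.WQ (h.Wn.conj_mem w hw t)

end Hyp

end Cfsg.Agent.H270.HM
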