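import Cfsg.Agent.H756.HM.Stmts
import Cfsg.Agent.H270.HM.Graph
import Cfsg.Agent.TwoFusion.PResidual
import Cfsg.Agent.H794.FusTop

/-!
# S5175 (hub helper756), T6: `StTop` (helper270)

`strong` : the equality case of the offender bound for conjugates of `W` under `Aut T`; `hyp_of` : the hypotheses of
`Graph.lean`; `stTop : StTop`.
-/

set_option autoImplicit false

namespace Cfsg.Agent.H270.HM

open Cfsg Subgroup Cfsg.Agent.H756.HM
open scoped commutatorElement

universe u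

theorem commutator_drop {G : Type*} [Group G] {w₁ w₂ g₁ g₂ : G} (h1 : Commute w₁ g₁) (h2 : Commute w₁ w₂)
    (h3 : Commute w₁ g₂) (h4 : Commute w₂ g₁) (h5 : Commute w₂ g₂) : ⁅w₁ * g₁, w₂ * g₂⁆ = ⁅g₁, g₂⁆ := by
  have e1 : w₁ * g₁ * (w₂ * g₂) = (w₁ * w₂) * (g₁ * g₂) := by
    rw [mul_assoc, ← mul_assoc g₁, ← h4.eq]; group
  have e2 : w₂ * g₂ * (w₁ * g₁) = (w₁ * w₂) * (g₂ * g₁) := by
    rw [mul_assoc, ← mul_assoc g₂, ← h3.eq, h2.eq]; group
  have e3 : Commute (w₁ * w₂) (g₁ * g₂ * (g₂ * g₁)⁻¹) := by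
    have k1 : Commute (w₁ * w₂) (g₁ * g₂) := (h1.mul_right h3).mul_left (h4.mul_right h5)
    have k2 : Commute (w₁ * w₂) (g₂ * g₁) := (h3.mul_right h1).mul_left (h5.mul_right h4)
    exact k1.mul_right k2.inv_right
  have e4 : ⁅w₁ * g₁, w₂ * g₂⁆ = (w₁ * g₁ * (w₂ * g₂)) * (w₂ * g₂ * (w₁ * g₁))⁻¹ := by
    rw [commutatorElement_def]; group
  have e5 : ⁅g₁, g₂⁆ = (g₁ * g₂) * (g₂ * g₁)⁻¹ := by
    rw [commutatorElement_def]; group
  rw [e4, e5, e1, e2, mul_inv_rev, ← mul_assoc, mul_assoc (w₁ * w₂), e3.eq, mul_inv_cancel_right]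

variable {P : Type u} [Group P] [Finite P]

/-- `O²(P) T = P` -/
theorem res_sup (T : Sylow 2 P) : pResidual 2 P ⊔ (T : Subgroup P) = ⊤ := by
  have : Fact (Nat.Prime 2) := ⟨Nat.prime_two⟩
  have hn : (pResidual 2 P).Normal := TwoFusion.PResidual.pResidual_normal 2
  have hp : IsPGroup 2 (P ⧸ pResidual 2 P) := TwoFusion.PResidual.isPGroup_quotient_pResidual 2
  obtain ⟨n, hn'⟩ := IsPGroup.iff_card.1 hp
  have h1 : (pResidual 2 P ⊔ (T : Subgroup P)).index ∣ 2 ^ n := by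
    rw [← hn', ← Subgroup.index_eq_card]
    exact index_dvd_of_le le_sup_left
  have h2 : ¬ 2 ∣ (pResidual 2 P ⊔ (T : Subgroup P)).index := by
    intro h
    exact T.not_dvd_index (h.trans (index_dvd_of_le le_sup_right))
  obtain ⟨k, -, hk⟩ := (Nat.dvd_prime_pow Nat.prime_two).1 h1
  rw [← Subgroup.index_eq_one, hk]
  rcases Nat.eq_zero_or_pos k with rfl | hk0
  · rw [pow_zero]
  · exact absurd (by rw [hk]; exact dvd_pow_self 2 hk0.ne') h2

section

variable {T : Sylow 2 P}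

local notation "TT" => (T : Subgroup P)
local notation "Wp" => (⁅pCore 2 P, pResidual 2 P⁆ : Subgroup P)
local notation "Wt" => Subgroup.subgroupOf (⁅pCore 2 P, pResidual 2 P⁆ : Subgroup P) (T : Subgroup P)
local notation "Qt" => Subgroup.subgroupOf (pCore 2 P) (T : Subgroup P)

omit [Finite P] in
theorem pc_normal : (pCore 2 P).Normal := H794.pCore_normal P 2

omit [Finite P] in
theorem res_normal : (pResidual 2 P).Normal := TwoFusion.PResidual.pResidual_normal 2

omit [Finite P] in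
theorem Wp_normal : (Wp).Normal := by
  have := pc_normal (P := P)
  have := res_normal (P := P)
  exact Subgroup.commutator_normal _ _

omit [Finite P] in
theorem Wp_le : Wp ≤ pCore 2 P := by
  have := pc_normal (P := P)
  exact Subgroup.commutator_le_left _ _

theorem pc_le (T : Sylow 2 P) : pCore 2 P ≤ (T : Subgroup P) := by
  have : Fact (Nat.Prime 2) := ⟨Nat.prime_two⟩
  exact H794.pCore_le_sylow T

omit [Finite P] in
/-- the elements of `O²(P)` move `g ∈ Q` inside `W g` -/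
theorem conj_eq {g e : P} (hg : g ∈ pCore 2 P) (he : e ∈ pResidual 2 P) : ∃ w ∈ Wp, e * g * e⁻¹ = w * g := by
  refine ⟨⁅e, g⁆, ?_, ?_⟩
  · rw [Subgroup.commutator_comm]
    exact Subgroup.commutator_mem_commutator he hg
  · rw [commutatorElement_def]; group

omit [Finite P] in
theorem sq_mem (hBW : BW TT) {g : P} (hg : g ∈ pCore 2 P) : g * g ∈ centralizer (pResidual 2 P : Set P) := by
  rw [mem_centralizer_iff]
  intro e he
  obtain ⟨w, hw, h1⟩ := conj_eq hg he
  have h2 : w * g = g * w := hBW.W_comm w hw g hg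
  have h3 : w * w = 1 := by rw [← pow_two]; exact hBW.W_sq w hw
  have h4 : e * (g * g) * e⁻¹ = g * g := by
    calc e * (g * g) * e⁻¹ = (e * g * e⁻¹) * (e * g * e⁻¹) := by group
      _ = w * (g * w) * g := by rw [h1]; group
      _ = (w * w) * (g * g) := by rw [← h2]; group
      _ = g * g := by rw [h3, one_mul]
  rwa [mul_inv_eq_iff_eq_mul] at h4

omit [Finite P] in
theorem commutator_mem' (hBW : BW TT) {g h : P} (hg : g ∈ pCore 2 P) (hh : h ∈ pCore 2 P) :
    ⁅g, h⁆ ∈ centralizer (pResidual 2 P : Set P) := by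
  rw [mem_centralizer_iff]
  intro e he
  obtain ⟨w, hw, h1⟩ := conj_eq hg he
  obtain ⟨v, hv, h2⟩ := conj_eq hh he
  have h4 : e * ⁅g, h⁆ * e⁻¹ = ⁅g, h⁆ := by
    calc e * ⁅g, h⁆ * e⁻¹ = ⁅e * g * e⁻¹, e * h * e⁻¹⁆ := by
          rw [commutatorElement_def, commutatorElement_def]; group
      _ = ⁅w * g, v * h⁆ := by rw [h1, h2]
      _ = ⁅g, h⁆ := commutator_drop (hBW.W_comm w hw g hg) (hBW.W_comm w hw v (Wp_le hv)) (hBW.W_comm w hw h hh)
          (hBW.W_comm v hv g hg) (hBW.W_comm v hv h hh)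
  rwa [mul_inv_eq_iff_eq_mul] at h4

theorem mem_Qt_iff (hBW : BW TT) (t : TT) : t ∈ Qt ↔ ∀ w ∈ Wt, w * t = t * w := by
  constructor
  · intro ht w hw
    exact Subtype.ext (hBW.W_comm w hw t ht)
  · intro h
    rw [mem_subgroupOf, ← hBW.CTW, mem_inf]
    refine ⟨t.2, ?_⟩
    rw [mem_centralizer_iff]
    intro w hw
    exact congrArg Subtype.val (h ⟨w, pc_le T (Wp_le hw)⟩ hw)

/-- the index `|βW : βW ∩ Q|` -/
noncomputable def fI (T : Sylow 2 P) (β : MulAut (T : Subgroup P)) : ℕ :=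
  (Subgroup.subgroupOf (pCore 2 P) (T : Subgroup P) ⊓
    (Subgroup.subgroupOf (⁅pCore 2 P, pResidual 2 P⁆ : Subgroup P) (T : Subgroup P)).map β.toMonoidHom).relIndex
    ((Subgroup.subgroupOf (⁅pCore 2 P, pResidual 2 P⁆ : Subgroup P) (T : Subgroup P)).map β.toMonoidHom)

theorem map_Qt : (Qt).map (TT).subtype = pCore 2 P := by
  rw [Subgroup.subgroupOf_map_subtype, inf_eq_left.2 (pc_le T)]

theorem map_Wt : (Wt).map (TT).subtype = Wp := by
  rw [Subgroup.subgroupOf_map_subtype, inf_eq_left.2 (Wp_le.trans (pc_le T))]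

theorem relIndex_left (β : MulAut TT) : (pCore 2 P ⊓ ((Wt).map β.toMonoidHom).map (TT).subtype).relIndex
    (((Wt).map β.toMonoidHom).map (TT).subtype) = fI T β := by
  unfold fI
  rw [← Subgroup.relIndex_map_map_of_injective _ _ (TT).subtype_injective, Subgroup.map_inf _ _ _ (TT).subtype_injective,
    map_Qt]

theorem relIndex_right (hBW : BW TT) (β : MulAut TT) :
    (Wp ⊓ centralizer ((((Wt).map β.toMonoidHom).map (TT).subtype : Subgroup P) : Set P)).relIndex Wp = fI T β⁻¹ := by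
  have h1 : Wp ⊓ centralizer ((((Wt).map β.toMonoidHom).map (TT).subtype : Subgroup P) : Set P) =
      (Wt ⊓ (Qt).map β.toMonoidHom).map (TT).subtype := by
    ext x
    constructor
    · rintro ⟨hx, hc⟩
      have hxT : x ∈ TT := pc_le T (Wp_le hx)
      refine ⟨⟨x, hxT⟩, ⟨hx, β⁻¹ ⟨x, hxT⟩, ?_, MulAut.apply_inv_self _ _ _⟩, rfl⟩
      rw [SetLike.mem_coe, mem_Qt_iff hBW]
      intro w hw
      apply β.injective
      rw [map_mul, map_mul, MulAut.apply_inv_self]
      exact Subtype.ext (mem_centralizer_iff.1 hc _ ⟨β w, ⟨w, hw, rfl⟩, rfl⟩)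
    · rintro ⟨t, ⟨ht, s, hs, hst⟩, rfl⟩
      refine ⟨ht, ?_⟩
      refine mem_centralizer_iff.2 ?_
      rintro _ ⟨_, ⟨w, hw, rfl⟩, rfl⟩
      have h2 := (mem_Qt_iff hBW s).1 hs w hw
      have h3 : β w * β s = β s * β w := by rw [← map_mul, h2, map_mul]
      rw [← hst]
      exact congrArg Subtype.val h3
  have h2 : ((Wt).map (β⁻¹).toMonoidHom).map β.toMonoidHom = Wt := by
    ext x
    constructor
    · rintro ⟨_, ⟨w, hw, rfl⟩, rfl⟩
      show β (β⁻¹ w) ∈ Wt
      rwa [MulAut.apply_inv_self]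
    · intro hx
      exact ⟨β⁻¹ x, ⟨x, hx, rfl⟩, MulAut.apply_inv_self _ _ _⟩
  have h3 : (((Wt ⊓ (Qt).map β.toMonoidHom).map (TT).subtype : Subgroup P)).relIndex Wp =
      (Wt ⊓ (Qt).map β.toMonoidHom).relIndex Wt := by
    have := Subgroup.relIndex_map_map_of_injective (Wt ⊓ (Qt).map β.toMonoidHom) Wt (TT).subtype_injective
    rwa [map_Wt] at this
  rw [h1, h3]
  unfold fI
  rw [← Subgroup.relIndex_map_map_of_injective (Qt ⊓ _) _ (f := β.toMonoidHom) β.injective,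
    Subgroup.map_inf _ _ _ β.injective, h2, inf_comm]

/-- **`βW · Q = T₀`** -/
theorem strong (hBW : BW TT) (d : BD TT) (β : MulAut TT) (hβ : ¬ (Wt).map β.toMonoidHom ≤ Qt) :
    (Wt).map β.toMonoidHom ⊔ Qt = d.T0.subgroupOf TT := by
  have hX : ∀ β : MulAut TT, (((Wt).map β.toMonoidHom).map (TT).subtype : Subgroup P) ≤ TT ∧
      TT ≤ normalizer ((((Wt).map β.toMonoidHom).map (TT).subtype : Subgroup P) : Set P) ∧
      (∀ a ∈ (((Wt).map β.toMonoidHom).map (TT).subtype : Subgroup P),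
        ∀ b ∈ (((Wt).map β.toMonoidHom).map (TT).subtype : Subgroup P), a * b = b * a) ∧
      ∀ a ∈ (((Wt).map β.toMonoidHom).map (TT).subtype : Subgroup P), a ^ 2 = 1 := by
    intro β
    refine ⟨map_subtype_le _, ?_, ?_, ?_⟩
    · have hn : ((Wt).map β.toMonoidHom).Normal := by
        have := Wp_normal (P := P)
        exact (Subgroup.normal_subgroupOf : (Wt).Normal).map _ β.surjective
      intro t ht
      rw [mem_normalizer_iff]
      intro x
      constructor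
      · rintro ⟨y, hy, rfl⟩
        exact ⟨_, hn.conj_mem y hy ⟨t, ht⟩, rfl⟩
      · rintro ⟨y, hy, hxy⟩
        have h1 := hn.conj_mem y hy ⟨t⁻¹, inv_mem ht⟩
        refine ⟨_, h1, ?_⟩
        have h2 : (y : P) = t * x * t⁻¹ := hxy
        show t⁻¹ * (y : P) * (t⁻¹)⁻¹ = x
        rw [h2]; group
    · rintro _ ⟨_, ⟨a, ha, rfl⟩, rfl⟩ _ ⟨_, ⟨b, hb, rfl⟩, rfl⟩
      have h1 : a * b = b * a := Subtype.ext (hBW.W_comm a ha b (Wp_le hb))
      have h2 : β a * β b = β b * β a := by rw [← map_mul, h1, map_mul]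
      exact congrArg Subtype.val h2
    · rintro _ ⟨_, ⟨a, ha, rfl⟩, rfl⟩
      have h1 : a ^ 2 = 1 := Subtype.ext (hBW.W_sq a ha)
      have h2 : β a ^ 2 = 1 := by rw [← map_pow, h1, map_one]
      exact congrArg Subtype.val h2
  have hW := d.hW
  obtain ⟨a1, a2, a3, a4⟩ := hX β
  obtain ⟨b1, b2, b3, b4⟩ := hX β⁻¹
  have h1 := d.off _ a1 a2 a3 a4
  have h2 := d.off _ b1 b2 b3 b4
  rw [hW, relIndex_left, relIndex_right hBW] at h1 h2
  rw [inv_inv] at h2
  have h3 := d.off_eq _ a1 a2 a3 a4 (by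
    rw [hW, relIndex_left, relIndex_right hBW]
    exact h2)
  rcases h3 with h3 | h3
  · exfalso
    apply hβ
    have h4 : ((Wt).map β.toMonoidHom).map (TT).subtype ≤ (Qt).map (TT).subtype := by
      rw [map_Qt]; exact h3
    exact (Subgroup.map_le_map_iff_of_injective (TT).subtype_injective).1 h4
  · apply Subgroup.map_injective (TT).subtype_injective
    rw [Subgroup.map_sup, map_Qt, h3, Subgroup.subgroupOf_map_subtype, inf_eq_left.2 d.T0_le]

theorem hyp_of (hBW : BW TT) (d : BD TT) : ∃ Wu Ta : Subgroup TT,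
    Hyp Wt Qt (d.T0.subgroupOf TT) ((centralizer (pResidual 2 P : Set P)).subgroupOf TT) Wu Ta := by
  obtain ⟨Wu, Ta, h1, h2, h3, h4, h5⟩ := d.coord
  rw [d.hW] at h1 h2 h5
  refine ⟨Wu.subgroupOf TT, Ta.subgroupOf TT, ?_⟩
  exact
    { WQ := fun x hx => Wp_le hx
      Wn := by
        have := Wp_normal (P := P)
        exact Subgroup.normal_subgroupOf
      Qn := by
        have := pc_normal (P := P)
        exact Subgroup.normal_subgroupOf
      comm := fun w hw g hg => Subtype.ext (hBW.W_comm w hw g hg)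
      sq := fun w hw => Subtype.ext (by
        have := hBW.W_sq w hw
        rwa [pow_two] at this)
      cen := fun t ht => (mem_Qt_iff hBW t).2 ht
      Dsq := fun g hg => sq_mem hBW hg
      Dcomm := fun g hg k hk => commutator_mem' hBW hg hk
      strong := fun β hβ => strong hBW d β hβ
      cent := fun t ht => d.cent t t.2 fun a ha => ht ⟨a, d.T0_le ha⟩ ha
      Wu_le := fun w hw hc => h1 ⟨hw, by
        show (w : P) ∈ centralizer (d.T0 : Set P)
        rw [mem_centralizer_iff]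
        intro a ha
        exact (congrArg Subtype.val (hc ⟨a, d.T0_le ha⟩ ha)).symm⟩
      nWu := fun h => h2 fun x hx => h (x := ⟨x, pc_le T (Wp_le hx)⟩) hx
      QTa := fun x hx => h3 hx
      nTa := fun h => h4 fun x hx => h (x := ⟨x, d.T0_le hx⟩) hx
      coord := fun w hw t ht hc => h5 w hw t ht hc }

end

/-- **T6** -/
theorem stTop : StTop.{u} := by
  intro P _ _ T hT hBW hBD 𝔸 hIn hodd hW
  have hall : ∀ β ∈ 𝔸, (Subgroup.subgroupOf (⁅pCore 2 P, pResidual 2 P⁆ : Subgroup P) (T : Subgroup P)).map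
      β.toMonoidHom ≤ Subgroup.subgroupOf (pCore 2 P) (T : Subgroup P) := by
    intro β hβ
    by_contra hcon
    obtain ⟨d⟩ := hBD β (by
      obtain ⟨_, ⟨w, hw, rfl⟩, h1⟩ := SetLike.not_le_iff_exists.1 hcon
      exact ⟨w, hw, h1⟩)
    obtain ⟨Wu, Ta, h⟩ := hyp_of hBW d
    -- an odd power is inner
    have hInn : ((MulAut.conj : ↥(T : Subgroup P) →* MulAut ↥(T : Subgroup P)).range.subgroupOf 𝔸).Normal := by
      have : (MulAut.conj : ↥(T : Subgroup P) →* MulAut ↥(T : Subgroup P)).range.Normal := by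
        refine ⟨?_⟩
        rintro _ ⟨t, rfl⟩ γ
        refine ⟨γ t, ?_⟩
        ext x
        simp
      exact Subgroup.normal_subgroupOf
    have h1 : (⟨β, hβ⟩ : 𝔸) ^ (MulAut.conj : ↥(T : Subgroup P) →* MulAut ↥(T : Subgroup P)).range.relIndex 𝔸 ∈
        (MulAut.conj : ↥(T : Subgroup P) →* MulAut ↥(T : Subgroup P)).range.subgroupOf 𝔸 :=
      Subgroup.pow_index_mem _ _
    obtain ⟨t, ht⟩ := h1
    exact hcon (h.le_of_odd hodd (t := t) ht.symm)
  set WT := Subgroup.subgroupOf (⁅pCore 2 P, pResidual 2 P⁆ : Subgroup P) (T : Subgroup P) with hWT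
  set D : Subgroup ↥(T : Subgroup P) := ⨆ β ∈ 𝔸, WT.map β.toMonoidHom with hD
  have hWD : WT ≤ D := by
    have h1 : WT.map (1 : MulAut ↥(T : Subgroup P)).toMonoidHom = WT := Subgroup.map_id _
    rw [← h1, hD]
    exact le_iSup₂_of_le 1 (one_mem _) le_rfl
  have hinv : ∀ β ∈ 𝔸, D.map β.toMonoidHom ≤ D := by
    intro β hβ
    rw [hD, Subgroup.map_iSup]
    refine iSup_le fun γ => ?_
    rw [Subgroup.map_iSup]
    refine iSup_le fun hγ => ?_
    rw [Subgroup.map_map]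
    exact le_iSup₂_of_le (β * γ) (mul_mem hβ hγ) le_rfl
  have hDQ : D ≤ Subgroup.subgroupOf (pCore 2 P) (T : Subgroup P) := iSup₂_le hall
  refine ⟨D, ?_, ?_, ?_⟩
  · intro h0
    apply hW
    rw [eq_bot_iff]
    intro w hw
    have h1 : (⟨w, pc_le T (Wp_le hw)⟩ : ↥(T : Subgroup P)) ∈ D := hWD hw
    rw [h0, mem_bot] at h1
    exact congrArg Subtype.val h1
  · rw [← Subgroup.normalizer_eq_top_iff, eq_top_iff, ← res_sup T, sup_le_iff]
    constructor
    · have hmem : ∀ e ∈ pResidual 2 P, ∀ x ∈ D.map (T : Subgroup P).subtype, e * x * e⁻¹ ∈ D.map (T : Subgroup P).subtype := by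
        rintro e he _ ⟨x, hx, rfl⟩
        have hxQ : (x : P) ∈ pCore 2 P := hDQ hx
        obtain ⟨w, hw, h1⟩ := conj_eq hxQ he
        show e * (x : P) * e⁻¹ ∈ _
        rw [h1]
        exact mul_mem ⟨⟨w, pc_le T (Wp_le hw)⟩, hWD hw, rfl⟩ ⟨x, hx, rfl⟩
      intro e he
      rw [mem_normalizer_iff]
      intro x
      refine ⟨hmem e he x, fun h1 => ?_⟩
      have h2 := hmem e⁻¹ (inv_mem he) _ h1
      have h3 : e⁻¹ * (e * x * e⁻¹) * e⁻¹⁻¹ = x := by group
      rwa [h3] at h2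
    · have hmem : ∀ t ∈ (T : Subgroup P), ∀ x ∈ D.map (T : Subgroup P).subtype, t * x * t⁻¹ ∈ D.map (T : Subgroup P).subtype := by
        rintro t ht _ ⟨x, hx, rfl⟩
        exact ⟨_, hinv (MulAut.conj ⟨t, ht⟩) (hIn ⟨_, rfl⟩) ⟨x, hx, rfl⟩, rfl⟩
      intro t ht
      rw [mem_normalizer_iff]
      intro x
      refine ⟨hmem t ht x, fun h1 => ?_⟩
      have h2 := hmem t⁻¹ (inv_mem ht) _ h1
      have h3 : t⁻¹ * (t * x * t⁻¹) * t⁻¹⁻¹ = x := by group
      rwa [h3] at h2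
  · intro β hβ
    apply le_antisymm (hinv β hβ)
    have h1 := Subgroup.map_mono (f := β.toMonoidHom) (hinv β⁻¹ (inv_mem hβ))
    have h2 : (D.map (β⁻¹).toMonoidHom).map β.toMonoidHom = D := by
      ext x
      constructor
      · rintro ⟨_, ⟨w, hw, rfl⟩, rfl⟩
        show β (β⁻¹ w) ∈ D
        rwa [MulAut.apply_inv_self]
      · intro hx
        exact ⟨β⁻¹ x, ⟨x, hx, rfl⟩, MulAut.apply_inv_self _ _ _⟩
    rwa [h2] at h1

end Cfsg.Agent.H270.HM
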